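import Cfsg.Agent.H959.T5.Tools
import Cfsg.Agent.H621.SY.Mathieu
import Cfsg.Agent.H447.MElems

/-!
# S3854: the rows `M12`, `M22`, `M23`, `M24` (task 2788, helper621)
-/

set_option autoImplicit false
set_option linter.unusedSectionVars false

namespace Cfsg.Agent.H621.TEMathieu

open Subgroup Cfsg Cfsg.Agent.H301.SY Cfsg.Agent.H459.Rad Cfsg.Agent.H959.T5 Cfsg.Agent.H621.SYMathieu

/-- `p ∤ |K|` -/
theorem noTE_of_not_dvd {K : Type*} [Group K] {p : ℕ} (h : ¬ p ∣ Nat.card K) : NoTE p K :=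
  fun x hx _ _ => h (hx ▸ orderOf_dvd_natCard x)

theorem noTE_m12 {K : Type*} [Group K] [Finite K] [IsSimpleGroup K] (h : Cfsg.Spor.IsoM12 K) {p : ℕ} [Fact p.Prime]
    (hp : 5 ≤ p) (_hb : Cfsg.Agent.H301.SY.Blk p K) (_hO : Cfsg.Agent.H301.SY.ThO p K) :
    Cfsg.Agent.H959.T5.NoTE p K := by
  obtain ⟨e⟩ := h
  refine NoTE.congr e ?_
  have hc : Nat.card Spor.M12 = 95040 := Cfsg.Agent.MTwelveType.SylowModel.card_M12
  by_cases hd : p ∣ 95040
  · have h1 := mem_of_dvd (Fact.out : p.Prime) [(2, 6), (3, 3), (5, 1), (11, 1)] (by norm_num) (by norm_num; exact hd)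
    have := Cfsg.Agent.FooteOdd.SporMEleven.simple
    have h2 : p = 5 ∨ p = 11 := by
      simp at h1
      omega
    refine NoTE.of_lw (cyclic_of_card ?_) (lw_of_le (A := Spor.M11) inf_le_left Cfsg.Agent.FooteOdd.SporMEleven.card hc
      (by norm_num) (by norm_num) ?_)
    · rw [hc]; rcases h2 with rfl | rfl <;> norm_num
    · rcases h2 with rfl | rfl <;> norm_num
  · exact noTE_of_not_dvd (by rw [hc]; exact hd)

theorem noTE_m22 {K : Type*} [Group K] [Finite K] [IsSimpleGroup K] (h : Cfsg.Spor.IsoM22 K) {p : ℕ} [Fact p.Prime]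
    (hp : 5 ≤ p) (hb : Cfsg.Agent.H301.SY.Blk p K) (_hO : Cfsg.Agent.H301.SY.ThO p K) :
    Cfsg.Agent.H959.T5.NoTE p K := by
  obtain ⟨e⟩ := h
  have hc : Nat.card Spor.M22 = 443520 := Cfsg.Agent.SporadicA.MathieuRecog.card_M22
  have hcK : Nat.card K = 443520 := by rw [Nat.card_congr e.toEquiv, hc]
  by_cases hd : p ∣ 443520
  · have h1 := mem_of_dvd (Fact.out : p.Prime) [(2, 7), (3, 2), (5, 1), (7, 1), (11, 1)] (by norm_num)
      (by norm_num; exact hd)
    have h2 : (p = 5 ∨ p = 7) ∨ p = 11 := by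
      simp at h1
      omega
    rcases h2 with h2 | rfl
    · refine NoTE.congr e (NoTE.of_lw (cyclic_of_card ?_) (lw_m22 ?_))
      · rw [hc]; rcases h2 with rfl | rfl <;> norm_num
      · rcases h2 with rfl | rfl <;> norm_num
    · have hcyc := cyclic_of_card (K := K) (p := 11) (by rw [hcK]; norm_num)
      obtain ⟨g, hg⟩ := Cfsg.Agent.H447.MElems.four_M22
      refine NoTE.of_orderOf (y := e.symm g) (k := 2) hcyc hb (by norm_num) ?_ (by norm_num)
      rw [← hg.trans (show 4 = 2 ^ 2 by norm_num)]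
      exact orderOf_injective e.symm.toMonoidHom e.symm.injective g
  · exact noTE_of_not_dvd (by rw [hcK]; exact hd)

theorem noTE_m23 {K : Type*} [Group K] [Finite K] [IsSimpleGroup K] (h : Cfsg.Spor.IsoM23 K) {p : ℕ} [Fact p.Prime]
    (hp : 5 ≤ p) (hb : Cfsg.Agent.H301.SY.Blk p K) (_hO : Cfsg.Agent.H301.SY.ThO p K) :
    Cfsg.Agent.H959.T5.NoTE p K := by
  obtain ⟨e⟩ := h
  have hc : Nat.card Spor.M23 = 10200960 := Cfsg.Agent.SporadicA.MathieuRecog.card_M23
  have hcK : Nat.card K = 10200960 := by rw [Nat.card_congr e.toEquiv, hc]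
  by_cases hd : p ∣ 10200960
  · have h1 := mem_of_dvd (Fact.out : p.Prime) [(2, 7), (3, 2), (5, 1), (7, 1), (11, 1), (23, 1)] (by norm_num)
      (by norm_num; exact hd)
    have h2 : (p = 5 ∨ p = 7 ∨ p = 11) ∨ p = 23 := by
      simp at h1
      omega
    rcases h2 with h2 | rfl
    · have := Cfsg.Agent.SporadicA.MathieuRecog.simple_M22
      refine NoTE.congr e (NoTE.of_lw (cyclic_of_card ?_) (lw_of_le (A := Spor.M22) inf_le_left
        Cfsg.Agent.SporadicA.MathieuRecog.card_M22 hc (by norm_num) (by norm_num) ?_))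
      · rw [hc]; rcases h2 with rfl | rfl | rfl <;> norm_num
      · rcases h2 with rfl | rfl | rfl <;> norm_num
    · have hcyc := cyclic_of_card (K := K) (p := 23) (by rw [hcK]; norm_num)
      obtain ⟨g, hg⟩ := Cfsg.Agent.H447.MElems.four_M22
      let g' : Spor.M23 := Subgroup.inclusion (inf_le_left : Spor.M22 ≤ Spor.M23) g
      have hg' : orderOf g' = 2 ^ 2 := by
        rw [← hg.trans (show 4 = 2 ^ 2 by norm_num)]
        exact orderOf_injective (Subgroup.inclusion (inf_le_left : Spor.M22 ≤ Spor.M23))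
          (Subgroup.inclusion_injective _) g
      refine NoTE.of_orderOf (y := e.symm g') (k := 2) hcyc hb (by norm_num) ?_ (by norm_num)
      rw [← hg']
      exact orderOf_injective e.symm.toMonoidHom e.symm.injective g'
  · exact noTE_of_not_dvd (by rw [hcK]; exact hd)

theorem noTE_m24 {K : Type*} [Group K] [Finite K] [IsSimpleGroup K] (h : Cfsg.Spor.IsoM24 K) {p : ℕ} [Fact p.Prime]
    (hp : 5 ≤ p) (_hb : Cfsg.Agent.H301.SY.Blk p K) (_hO : Cfsg.Agent.H301.SY.ThO p K) :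
    Cfsg.Agent.H959.T5.NoTE p K := by
  obtain ⟨e⟩ := h
  refine NoTE.congr e ?_
  have hc : Nat.card M24 = 244823040 := Cfsg.Agent.SporadicA.M24Trans.card_M24
  by_cases hd : p ∣ 244823040
  · have h1 := mem_of_dvd (Fact.out : p.Prime) [(2, 10), (3, 3), (5, 1), (7, 1), (11, 1), (23, 1)] (by norm_num)
      (by norm_num; exact hd)
    have := Cfsg.Agent.S2037.simple
    have h2 : p = 5 ∨ p = 7 ∨ p = 11 ∨ p = 23 := by
      simp at h1
      omega
    refine NoTE.of_lw (cyclic_of_card ?_) (lw_of_le (A := Spor.M23) inf_le_left Cfsg.Agent.SporadicA.MathieuRecog.card_M23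
      hc (by norm_num) (by norm_num) ?_)
    · rw [hc]; rcases h2 with rfl | rfl | rfl | rfl <;> norm_num
    · rcases h2 with rfl | rfl | rfl | rfl <;> norm_num
  · exact noTE_of_not_dvd (by rw [hc]; exact hd)

end Cfsg.Agent.H621.TEMathieu
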